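import Cfsg.Agent.Lib.Helper17.SU3G.Defs

set_option autoImplicit false

namespace Cfsg.Agent.Lib.Helper17.SU3G

open Matrix

variable {F : Type*} [Field F] [Fintype F] {q : ℕ}

theorem mk_two_ne (hq : Odd q) (hF : Fintype.card F = q ^ 2) : (2 : F) ≠ 0 := by
  intro h2
  have h := CharP.ringChar_of_prime_eq_zero (R := F) Nat.prime_two (by exact_mod_cast h2)
  have h3 := FiniteField.even_card_iff_char_two.1 h
  have h4 : Odd (q ^ 2) := hq.pow
  rw [Nat.odd_iff, ← hF] at h4
  omega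

theorem mk_two_pow (hF : Fintype.card F = q ^ 2) : (2 : F) ^ q = 2 := by
  have := add_pow_q hF (1 : F) 1
  rw [one_pow, one_add_one_eq_two] at this
  exact this

/-- the map `v ↦ -v + (2 h(v,a)/h(a,a)) a` is an isometry. -/
theorem mk_isom (hq : Odd q) (hF : Fintype.card F = q ^ 2) (a : Fin 3 → F)
    (ha : Cfsg.hermForm 3 F q a a ≠ 0) (u v : Fin 3 → F) :
    Cfsg.hermForm 3 F q (-u + (2 * Cfsg.hermForm 3 F q u a / Cfsg.hermForm 3 F q a a) • a)
      (-v + (2 * Cfsg.hermForm 3 F q v a / Cfsg.hermForm 3 F q a a) • a) = Cfsg.hermForm 3 F q u v := by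
  have hr : (Cfsg.hermForm 3 F q a a) ^ q = Cfsg.hermForm 3 F q a a := hermForm_conj hF 3 a a
  have ht : (Cfsg.hermForm 3 F q v a) ^ q = Cfsg.hermForm 3 F q a v := hermForm_conj hF 3 v a
  have hn : ∀ w : Fin 3 → F, -w = (-1 : F) • w := fun w => by simp
  rw [hn u, hn v, hermForm_add_left, hermForm_add_right hF, hermForm_add_right hF,
    hermForm_smul_left, hermForm_smul_left, hermForm_smul_left, hermForm_smul_left,
    hermForm_smul_right, hermForm_smul_right, hermForm_smul_right, hermForm_smul_right,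
    hq.neg_one_pow, div_pow, mul_pow, hr, ht, mk_two_pow hF]
  field_simp
  ring

/-- MK. -/
theorem exists_inv (hq : Odd q) (hF : Fintype.card F = q ^ 2) (a : Fin 3 → F)
    (ha : Cfsg.hermForm 3 F q a a ≠ 0) : ∃ x : ↥(Cfsg.SU 3 F q), x ≠ 1 ∧ x * x = 1 ∧ Ax x a := by
  have h2 := mk_two_ne hq hF
  obtain ⟨X, hX⟩ : ∃ X : Matrix (Fin 3) (Fin 3) F,
      X = -(hermRankOne q (-2 / Cfsg.hermForm 3 F q a a) a a) := ⟨_, rfl⟩
  have hXv : ∀ v, X *ᵥ v = -v + (2 * Cfsg.hermForm 3 F q v a / Cfsg.hermForm 3 F q a a) • a := by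
    intro v
    rw [hX, Matrix.neg_mulVec, hermRankOne_mulVec, neg_add, ← neg_smul]
    congr 2
    ring
  have hdet : X.det = 1 := by
    rw [hX, Matrix.det_neg, hermRankOne_det, Fintype.card_fin]
    field_simp
    ring
  have hiso : ∀ u v, Cfsg.hermForm 3 F q (X *ᵥ u) (X *ᵥ v) = Cfsg.hermForm 3 F q u v := by
    intro u v
    rw [hXv, hXv, mk_isom hq hF a ha]
  let x : ↥(Cfsg.SU 3 F q) := ⟨⟨X, hdet⟩, hiso⟩
  have hx : ∀ v, mt x *ᵥ v = -v + (2 * Cfsg.hermForm 3 F q v a / Cfsg.hermForm 3 F q a a) • a := hXv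
  have hXa : X *ᵥ a = a := by
    rw [hXv]
    have : 2 * Cfsg.hermForm 3 F q a a / Cfsg.hermForm 3 F q a a = 2 := by field_simp
    rw [this, two_smul]
    abel
  refine ⟨x, ?_, ?_, ha, hx⟩
  · intro h1
    have h3 : ∀ v, X *ᵥ v = v := by
      intro v
      have : mt x *ᵥ v = v := by rw [h1]; simp [mt]
      exact this
    -- every vector is a multiple of `a`
    have h4 : ∀ v : Fin 3 → F, ∃ c : F, v = c • a := by
      intro v
      have h5 := h3 v
      rw [hXv] at h5
      refine ⟨(Cfsg.hermForm 3 F q v a / Cfsg.hermForm 3 F q a a), ?_⟩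
      have h6 : (2 : F) • v = (2 : F) • ((Cfsg.hermForm 3 F q v a / Cfsg.hermForm 3 F q a a) • a) := by
        rw [smul_smul, two_smul, ← mul_div_assoc]
        nth_rewrite 1 [← h5]
        abel
      exact smul_right_injective _ h2 h6
    obtain ⟨c0, hc0⟩ := h4 (Pi.single 0 1)
    obtain ⟨c1, hc1⟩ := h4 (Pi.single 1 1)
    have e00 := congrFun hc0 0
    have e01 := congrFun hc0 1
    have e10 := congrFun hc1 0
    have e11 := congrFun hc1 1
    simp at e00 e01 e10 e11
    have : c0 ≠ 0 := by rintro rfl; simp at e00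
    have ha1 : a 1 = 0 := by
      rcases e01 with h | h
      · exact absurd h this
      · exact h
    rw [ha1] at e11
    simp at e11
  · apply Subtype.ext
    apply Subtype.ext
    change X * X = 1
    apply Matrix.ext_iff_mulVec.mpr
    intro v
    rw [← Matrix.mulVec_mulVec, Matrix.one_mulVec, hXv v, Matrix.mulVec_add, Matrix.mulVec_neg,
      Matrix.mulVec_smul, hXa, hXv v]
    abel

end Cfsg.Agent.Lib.Helper17.SU3G
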