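import Cfsg.Agent.Lib.Helper17.SU3G.Defs
import Cfsg.Agent.Lib.Helper17.SU3G.MK

set_option autoImplicit false

namespace Cfsg.Agent.Lib.Helper17.SU3G

open Matrix

variable {F : Type*} [Field F] [Fintype F] {q : ℕ}

omit [Fintype F] in
theorem ax_ext {x y : ↥(Cfsg.SU 3 F q)} {a : Fin 3 → F} (hx : Ax x a) (hy : Ax y a) : x = y := by
  apply Subtype.ext
  apply Subtype.ext
  apply Matrix.ext_iff_mulVec.mpr
  intro v
  exact (hx.2 v).trans (hy.2 v).symm

theorem ax_smul (hF : Fintype.card F = q ^ 2) {x : ↥(Cfsg.SU 3 F q)} {a : Fin 3 → F} (hx : Ax x a)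
    {c : F} (hc : c ≠ 0) : Ax x (c • a) := by
  have hcq : c ^ q ≠ 0 := pow_ne_zero _ hc
  have haa := hx.1
  refine ⟨?_, ?_⟩
  · rw [hermForm_smul_left, hermForm_smul_right]
    exact mul_ne_zero hc (mul_ne_zero hcq hx.1)
  · intro v
    rw [hx.2 v, hermForm_smul_left, hermForm_smul_right, hermForm_smul_right, smul_smul]
    congr 2
    field_simp

theorem uni_fix (hq : Odd q) (hF : Fintype.card F = q ^ 2) {x : ↥(Cfsg.SU 3 F q)} {a : Fin 3 → F}
    (hx : Ax x a) : mt x *ᵥ a = a := by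
  rw [hx.2]
  have : 2 * Cfsg.hermForm 3 F q a a / Cfsg.hermForm 3 F q a a = 2 := by
    have := hx.1
    field_simp
  rw [this, two_smul]
  abel

theorem ax_span (hq : Odd q) (hF : Fintype.card F = q ^ 2) {x : ↥(Cfsg.SU 3 F q)} {a b : Fin 3 → F}
    (hx : Ax x a) (hy : Ax x b) : ∃ c : F, c ≠ 0 ∧ b = c • a := by
  have h2 := mk_two_ne hq hF
  have hb := uni_fix hq hF hy
  rw [hx.2 b] at hb
  have hb0 : b ≠ 0 := by
    rintro rfl
    apply hy.1
    simp [Cfsg.hermForm]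
  have h3 : (2 : F) • b = (2 * Cfsg.hermForm 3 F q b a / Cfsg.hermForm 3 F q a a) • a := by
    rw [two_smul]
    nth_rewrite 1 [← hb]
    abel
  refine ⟨2⁻¹ * (2 * Cfsg.hermForm 3 F q b a / Cfsg.hermForm 3 F q a a), ?_, ?_⟩
  · intro h0
    have h4 : (2 * Cfsg.hermForm 3 F q b a / Cfsg.hermForm 3 F q a a) = 0 :=
      (mul_eq_zero.1 h0).resolve_left (inv_ne_zero h2)
    rw [h4, zero_smul] at h3
    exact hb0 ((smul_eq_zero.1 h3).resolve_left h2)
  · rw [mul_smul, ← h3, smul_smul, inv_mul_cancel₀ h2, one_smul]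

end Cfsg.Agent.Lib.Helper17.SU3G
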