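import Cfsg.Agent.Lib.Helper17.SU3G.Defs
import Cfsg.Agent.Lib.Helper17.SU3G.MK
import Cfsg.Agent.Lib.Helper17.SU3G.UNI

set_option autoImplicit false

namespace Cfsg.Agent.Lib.Helper17.SU3G

open Matrix

variable {F : Type*} [Field F] [Fintype F] {q : ℕ}

theorem com_swap (hF : Fintype.card F = q ^ 2) {a b : Fin 3 → F}
    (h : Cfsg.hermForm 3 F q a b = 0) : Cfsg.hermForm 3 F q b a = 0 := by
  rw [← hermForm_conj hF, h, zero_pow (by have := two_le_of_card_sq hF; omega)]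

theorem com_perp {x : ↥(Cfsg.SU 3 F q)} {a b : Fin 3 → F} (hx : Ax x a)
    (h : Cfsg.hermForm 3 F q b a = 0) : mt x *ᵥ b = -b := by
  rw [hx.2, h]
  simp

theorem com_half (hF : Fintype.card F = q ^ 2) {x y : ↥(Cfsg.SU 3 F q)}
    {a b : Fin 3 → F} (hx : Ax x a) (hy : Ax y b) (h : Cfsg.hermForm 3 F q a b = 0) (v : Fin 3 → F) :
    mt x *ᵥ (mt y *ᵥ v) = v - (2 * Cfsg.hermForm 3 F q v a / Cfsg.hermForm 3 F q a a) • a -
      (2 * Cfsg.hermForm 3 F q v b / Cfsg.hermForm 3 F q b b) • b := by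
  rw [hy.2 v, Matrix.mulVec_add, Matrix.mulVec_neg, Matrix.mulVec_smul, com_perp hx (com_swap hF h),
    hx.2 v, smul_neg]
  abel

/-- COM. -/
theorem commute_iff (hq : Odd q) (hF : Fintype.card F = q ^ 2) {x y : ↥(Cfsg.SU 3 F q)}
    {a b : Fin 3 → F} (hx : Ax x a) (hy : Ax y b) : Commute x y ↔ Rel q a b := by
  have h2 := mk_two_ne hq hF
  constructor
  · intro hc
    have hcm : ∀ v, mt x *ᵥ (mt y *ᵥ v) = mt y *ᵥ (mt x *ᵥ v) := by
      intro v
      have h3 : mt x * mt y = mt y * mt x := congrArg mt hc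
      rw [Matrix.mulVec_mulVec, Matrix.mulVec_mulVec, h3]
    have hw := hcm b
    rw [uni_fix hq hF hy] at hw
    -- `w = X b` is fixed by `Y`
    obtain ⟨w, hwdef⟩ : ∃ w, w = mt x *ᵥ b := ⟨_, rfl⟩
    rw [← hwdef] at hw
    have hw2 : (2 : F) • w = (2 * Cfsg.hermForm 3 F q w b / Cfsg.hermForm 3 F q b b) • b := by
      rw [two_smul]
      nth_rewrite 1 [hw]
      rw [hy.2 w]
      abel
    obtain ⟨k, hk⟩ : ∃ k : F, w = k • b :=
      ⟨2⁻¹ * (2 * Cfsg.hermForm 3 F q w b / Cfsg.hermForm 3 F q b b), by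
        rw [mul_smul, ← hw2, smul_smul, inv_mul_cancel₀ h2, one_smul]⟩
    rw [hwdef, hx.2 b] at hk
    by_cases hba : Cfsg.hermForm 3 F q b a = 0
    · exact Or.inl (com_swap hF hba)
    · right
      have hα : 2 * Cfsg.hermForm 3 F q b a / Cfsg.hermForm 3 F q a a ≠ 0 :=
        div_ne_zero (mul_ne_zero h2 hba) hx.1
      have h4 : (2 * Cfsg.hermForm 3 F q b a / Cfsg.hermForm 3 F q a a) • a = (k + 1) • b := by
        rw [add_smul, one_smul, ← hk]
        abel
      have ha0 : a ≠ 0 := by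
        rintro rfl
        apply hx.1
        simp [Cfsg.hermForm]
      have hk1 : k + 1 ≠ 0 := by
        intro h0
        rw [h0, zero_smul] at h4
        exact ha0 ((smul_eq_zero.1 h4).resolve_left hα)
      refine ⟨(k + 1)⁻¹ * (2 * Cfsg.hermForm 3 F q b a / Cfsg.hermForm 3 F q a a), ?_⟩
      rw [mul_smul, h4, smul_smul, inv_mul_cancel₀ hk1, one_smul]
  · rintro (h | ⟨c, rfl⟩)
    · apply Subtype.ext
      apply Subtype.ext
      change mt x * mt y = mt y * mt x
      apply Matrix.ext_iff_mulVec.mpr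
      intro v
      rw [← Matrix.mulVec_mulVec, ← Matrix.mulVec_mulVec, com_half hF hx hy h,
        com_half hF hy hx (com_swap hF h)]
      abel
    · have hc : c ≠ 0 := by
        rintro rfl
        apply hy.1
        simp [Cfsg.hermForm]
      rw [ax_ext (ax_smul hF hx hc) hy]

end Cfsg.Agent.Lib.Helper17.SU3G
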