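import Cfsg.Agent.Lib.Helper17.SU3G.Defs

set_option autoImplicit false

namespace Cfsg.Agent.Lib.Helper17.SU3G

open Matrix

variable {F : Type*} [Field F] [Fintype F] {q : ℕ}

theorem inv_two_ne (hq : Odd q) (hF : Fintype.card F = q ^ 2) : (2 : F) ≠ 0 := by
  intro h2
  have h := CharP.ringChar_of_prime_eq_zero (R := F) Nat.prime_two (by exact_mod_cast h2)
  have h3 := FiniteField.even_card_iff_char_two.1 h
  have h4 : Odd (q ^ 2) := hq.pow
  rw [Nat.odd_iff, ← hF] at h4
  omega

/-- an isometric involution one of whose eigenspaces is the line spanned by `a`. -/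
theorem inv_line (hq : Odd q) (hF : Fintype.card F = q ^ 2) (X : Matrix (Fin 3) (Fin 3) F)
    (hXX : ∀ v, X *ᵥ (X *ᵥ v) = v)
    (hiso : ∀ u v, Cfsg.hermForm 3 F q (X *ᵥ u) (X *ᵥ v) = Cfsg.hermForm 3 F q u v)
    (ε : F) (hε : ε = 1 ∨ ε = -1) (a : Fin 3 → F) (ha0 : a ≠ 0) (hXa : X *ᵥ a = ε • a)
    (hline : ∀ w, X *ᵥ w = ε • w → ∃ c : F, w = c • a) :
    Cfsg.hermForm 3 F q a a ≠ 0 ∧ ∀ v, X *ᵥ v =
      -(ε • v) + (ε * (2 * Cfsg.hermForm 3 F q v a / Cfsg.hermForm 3 F q a a)) • a := by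
  have h2 := inv_two_ne hq hF
  have hεε : ε * ε = 1 := by rcases hε with h | h <;> rw [h] <;> ring
  have hεq : ε ^ q = ε := by
    rcases hε with h | h
    · rw [h, one_pow]
    · rw [h, hq.neg_one_pow]
  have hplus : ∀ v, ∃ c : F, v + ε • (X *ᵥ v) = c • a := by
    intro v
    apply hline
    rw [Matrix.mulVec_add, Matrix.mulVec_smul, hXX, smul_add, smul_smul, hεε, one_smul, add_comm]
  have hminus : ∀ v, Cfsg.hermForm 3 F q (v - ε • (X *ᵥ v)) a = 0 := by
    intro v
    have h3 : X *ᵥ (v - ε • (X *ᵥ v)) = (-ε) • (v - ε • (X *ᵥ v)) := by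
      rw [Matrix.mulVec_sub, Matrix.mulVec_smul, hXX, smul_sub, smul_smul, neg_mul, hεε, neg_smul,
        neg_smul, one_smul]
      abel
    have h4 := hiso (v - ε • (X *ᵥ v)) a
    rw [h3, hXa, hermForm_smul_left, hermForm_smul_right, hεq] at h4
    have h5 : (2 : F) * Cfsg.hermForm 3 F q (v - ε • (X *ᵥ v)) a = 0 := by
      linear_combination (-1 : F) * h4 - Cfsg.hermForm 3 F q (v - ε • (X *ᵥ v)) a * hεε
    exact (mul_eq_zero.1 h5).resolve_left h2
  have hkey : ∀ v c, v + ε • (X *ᵥ v) = c • a →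
      2 * Cfsg.hermForm 3 F q v a = c * Cfsg.hermForm 3 F q a a := by
    intro v c hc
    have h3 : (2 : F) • v = c • a + (v - ε • (X *ᵥ v)) := by
      rw [← hc, two_smul]; abel
    have h4 := congrArg (fun w => Cfsg.hermForm 3 F q w a) h3
    simp only [hermForm_add_left, hermForm_smul_left, hminus, add_zero] at h4
    exact h4
  have haa : Cfsg.hermForm 3 F q a a ≠ 0 := by
    intro h0
    apply ha0
    apply hermForm_right_eq_zero hF
    intro v
    obtain ⟨c, hc⟩ := hplus v
    have := hkey v c hc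
    rw [h0, mul_zero] at this
    exact (mul_eq_zero.1 this).resolve_left h2
  refine ⟨haa, ?_⟩
  intro v
  obtain ⟨c, hc⟩ := hplus v
  have hc' : c = 2 * Cfsg.hermForm 3 F q v a / Cfsg.hermForm 3 F q a a := by
    rw [hkey v c hc]; field_simp
  rw [← hc', mul_smul, ← hc, smul_add, smul_smul, hεε, one_smul]
  abel

/-- INV. -/
theorem exists_axis (hq : Odd q) (hF : Fintype.card F = q ^ 2) (x : ↥(Cfsg.SU 3 F q)) (h1 : x ≠ 1)
    (h2 : x * x = 1) : ∃ a, Ax x a := by
  have h20 := inv_two_ne hq hF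
  obtain ⟨X, hX⟩ : ∃ X : Matrix (Fin 3) (Fin 3) F, X = mt x := ⟨_, rfl⟩
  have hdet : X.det = 1 := by rw [hX]; exact x.1.2
  have hiso : ∀ u v, Cfsg.hermForm 3 F q (X *ᵥ u) (X *ᵥ v) = Cfsg.hermForm 3 F q u v := by
    rw [hX]; exact x.2
  have hXXm : X * X = 1 := by
    have := congrArg mt h2
    rw [hX]
    exact this
  have hXX : ∀ v, X *ᵥ (X *ᵥ v) = v := by
    intro v; rw [Matrix.mulVec_mulVec, hXXm, Matrix.one_mulVec]
  have hne1 : X ≠ 1 := by
    intro h
    apply h1
    apply Subtype.ext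
    apply Subtype.ext
    rw [hX] at h
    exact h
  have hnem1 : X ≠ -1 := by
    intro h
    rw [h, Matrix.det_neg, Matrix.det_one, Fintype.card_fin] at hdet
    apply h20
    linear_combination -hdet
  set f : Module.End F (Fin 3 → F) := Matrix.toLin' X with hf
  have hfv : ∀ v, f v = X *ᵥ v := fun v => Matrix.toLin'_apply X v
  have hmem : ∀ (μ : F) v, v ∈ Module.End.eigenspace f μ ↔ X *ᵥ v = μ • v := by
    intro μ v
    rw [Module.End.mem_eigenspace_iff, hfv]
  have hcompl : IsCompl (Module.End.eigenspace f 1) (Module.End.eigenspace f (-1)) := by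
    constructor
    · rw [Submodule.disjoint_def]
      intro v hv hv'
      rw [hmem] at hv hv'
      rw [hv, one_smul, neg_smul, one_smul] at hv'
      have : (2 : F) • v = 0 := by
        rw [two_smul]
        nth_rewrite 1 [hv']
        abel
      exact (smul_eq_zero.1 this).resolve_left h20
    · rw [codisjoint_iff, eq_top_iff]
      intro v _
      have : v = (2 : F)⁻¹ • (v + X *ᵥ v) + (2 : F)⁻¹ • (v - X *ᵥ v) := by
        rw [← smul_add]
        have : v + X *ᵥ v + (v - X *ᵥ v) = (2 : F) • v := by rw [two_smul]; abel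
        rw [this, smul_smul, inv_mul_cancel₀ h20, one_smul]
      rw [this]
      apply Submodule.add_mem_sup
      · apply Submodule.smul_mem
        rw [hmem, Matrix.mulVec_add, hXX, one_smul, add_comm]
      · apply Submodule.smul_mem
        rw [hmem, Matrix.mulVec_sub, hXX, neg_smul, one_smul]
        abel
  have hsum := Submodule.finrank_add_eq_of_isCompl hcompl
  rw [Module.finrank_fin_fun] at hsum
  have hp : 1 ≤ Module.finrank F (Module.End.eigenspace f 1) := by
    rw [Submodule.one_le_finrank_iff]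
    intro hbot
    apply hnem1
    apply Matrix.ext_iff_mulVec.mpr
    intro v
    have : v + X *ᵥ v ∈ Module.End.eigenspace f 1 := by
      rw [hmem, Matrix.mulVec_add, hXX, one_smul, add_comm]
    rw [hbot, Submodule.mem_bot] at this
    rw [Matrix.neg_mulVec, Matrix.one_mulVec]
    exact (eq_neg_of_add_eq_zero_right this)
  have hm : 1 ≤ Module.finrank F (Module.End.eigenspace f (-1)) := by
    rw [Submodule.one_le_finrank_iff]
    intro hbot
    apply hne1
    apply Matrix.ext_iff_mulVec.mpr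
    intro v
    have : v - X *ᵥ v ∈ Module.End.eigenspace f (-1) := by
      rw [hmem, Matrix.mulVec_sub, hXX, neg_smul, one_smul]
      abel
    rw [hbot, Submodule.mem_bot] at this
    rw [Matrix.one_mulVec]
    exact (sub_eq_zero.1 this).symm
  have hline : ∀ ε : F, Module.finrank F (Module.End.eigenspace f ε) = 1 →
      ∃ a : Fin 3 → F, a ≠ 0 ∧ X *ᵥ a = ε • a ∧ ∀ w, X *ᵥ w = ε • w → ∃ c : F, w = c • a := by
    intro ε h
    obtain ⟨⟨a, ha⟩, ha0, hall⟩ := finrank_eq_one_iff'.1 h
    refine ⟨a, fun h0 => ha0 (Subtype.ext h0), (hmem ε a).1 ha, ?_⟩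
    intro w hw
    obtain ⟨c, hc⟩ := hall ⟨w, (hmem ε w).2 hw⟩
    exact ⟨c, (congrArg Subtype.val hc).symm⟩
  have hcases : Module.finrank F (Module.End.eigenspace f 1) = 1 ∨
      Module.finrank F (Module.End.eigenspace f (-1)) = 1 := by omega
  rcases hcases with h | h
  · obtain ⟨a, ha0, hXa, hl⟩ := hline 1 h
    obtain ⟨haa, hv⟩ := inv_line hq hF X hXX hiso 1 (Or.inl rfl) a ha0 hXa hl
    refine ⟨a, haa, ?_⟩
    intro v
    rw [← hX, hv, one_smul, one_mul]
  · exfalso
    obtain ⟨a, ha0, hXa, hl⟩ := hline (-1) h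
    obtain ⟨haa, hv⟩ := inv_line hq hF X hXX hiso (-1) (Or.inr rfl) a ha0 hXa hl
    have hXr : X = hermRankOne q (-2 / Cfsg.hermForm 3 F q a a) a a := by
      apply Matrix.ext_iff_mulVec.mpr
      intro v
      rw [hv, hermRankOne_mulVec, neg_smul, one_smul, neg_neg]
      congr 2
      ring
    rw [hXr, hermRankOne_det] at hdet
    apply h20
    have : -2 / Cfsg.hermForm 3 F q a a * Cfsg.hermForm 3 F q a a = -2 := by field_simp
    rw [this] at hdet
    linear_combination -hdet

end Cfsg.Agent.Lib.Helper17.SU3G
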