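import Cfsg.Agent.Lib.Helper17.SU3G.Defs
import Cfsg.Agent.Lib.Helper17.SU3G.INV
import Cfsg.Agent.Lib.Helper17.SU3G.MK
import Cfsg.Agent.Lib.Helper17.SU3G.UNI
import Cfsg.Agent.Lib.Helper17.SU3G.COM

set_option autoImplicit false

namespace Cfsg.Agent.Lib.Helper17.SU3G

open Matrix

variable {F : Type*} [Field F] [Fintype F] {q : ℕ}

theorem br_eq_iff (hq : Odd q) (hF : Fintype.card F = q ^ 2) {t x : ↥(Cfsg.SU 3 F q)}
    {a b : Fin 3 → F} (ht : Ax t a) (hx : Ax x b) : x = t ↔ ∃ c : F, b = c • a := by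
  constructor
  · rintro rfl
    obtain ⟨c, _, hc⟩ := ax_span hq hF ht hx
    exact ⟨c, hc⟩
  · rintro ⟨c, rfl⟩
    have hc : c ≠ 0 := by
      rintro rfl
      apply hx.1
      simp [Cfsg.hermForm]
    exact ax_ext hx (ax_smul hF ht hc)

theorem bridge1 (hq : Odd q) (hF : Fintype.card F = q ^ 2) {t x : ↥(Cfsg.SU 3 F q)}
    {a b : Fin 3 → F} (ht : Ax t a) (hx : Ax x b) : (x ≠ t ∧ Commute t x) ↔ P1 q a b := by
  rw [commute_iff hq hF ht hx]
  constructor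
  · rintro ⟨hne, h | h⟩
    · exact h
    · exact absurd ((br_eq_iff hq hF ht hx).2 h) hne
  · intro h
    refine ⟨?_, Or.inl h⟩
    intro heq
    obtain ⟨c, hc⟩ := (br_eq_iff hq hF ht hx).1 heq
    have hc0 : c ≠ 0 := by
      rintro rfl
      apply hx.1
      rw [hc]
      simp [Cfsg.hermForm]
    have h' : Cfsg.hermForm 3 F q a b = 0 := h
    rw [hc, hermForm_smul_right] at h'
    exact (mul_ne_zero (pow_ne_zero _ hc0) ht.1) h'

theorem br_mid (hq : Odd q) (hF : Fintype.card F = q ^ 2) {t x : ↥(Cfsg.SU 3 F q)}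
    {a b : Fin 3 → F} (ht : Ax t a) (hx : Ax x b) (hnr : ¬ Rel q a b) :
    (∃ y : ↥(Cfsg.SU 3 F q), y ≠ 1 ∧ y * y = 1 ∧ Commute t y ∧ Commute y x) ↔ Mid q a b := by
  constructor
  · rintro ⟨y, hy1, hy2, hty, hyx⟩
    obtain ⟨c, hc⟩ := exists_axis hq hF y hy1 hy2
    have r1 := (commute_iff hq hF ht hc).1 hty
    have r2 := (commute_iff hq hF hc hx).1 hyx
    refine ⟨c, hc.1, ?_, ?_⟩
    · rcases r1 with h | h
      · exact h
      · exfalso
        have : y = t := (br_eq_iff hq hF ht hc).2 h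
        rw [this] at hyx
        exact hnr ((commute_iff hq hF ht hx).1 hyx)
    · rcases r2 with h | h
      · exact h
      · exfalso
        have : x = y := (br_eq_iff hq hF hc hx).2 h
        rw [← this] at hty
        exact hnr ((commute_iff hq hF ht hx).1 hty)
  · rintro ⟨c, hcc, hac, hcb⟩
    obtain ⟨y, hy1, hy2, hy⟩ := exists_inv hq hF c hcc
    exact ⟨y, hy1, hy2, (commute_iff hq hF ht hy).2 (Or.inl hac),
      (commute_iff hq hF hy hx).2 (Or.inl hcb)⟩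

theorem bridge2 (hq : Odd q) (hF : Fintype.card F = q ^ 2) {t x : ↥(Cfsg.SU 3 F q)}
    {a b : Fin 3 → F} (ht : Ax t a) (hx : Ax x b) :
    (¬ Commute t x ∧ ∃ y : ↥(Cfsg.SU 3 F q), y ≠ 1 ∧ y * y = 1 ∧ Commute t y ∧ Commute y x) ↔
      P2 q a b := by
  rw [commute_iff hq hF ht hx]
  constructor
  · rintro ⟨h1, h2⟩
    exact ⟨h1, (br_mid hq hF ht hx h1).1 h2⟩
  · rintro ⟨h1, h2⟩
    exact ⟨h1, (br_mid hq hF ht hx h1).2 h2⟩

theorem bridge3 (hq : Odd q) (hF : Fintype.card F = q ^ 2) {t x : ↥(Cfsg.SU 3 F q)}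
    {a b : Fin 3 → F} (ht : Ax t a) (hx : Ax x b) :
    (¬ Commute t x ∧ ∀ y : ↥(Cfsg.SU 3 F q), y ≠ 1 → y * y = 1 → ¬ (Commute t y ∧ Commute y x)) ↔
      P3 q a b := by
  rw [commute_iff hq hF ht hx]
  constructor
  · rintro ⟨h1, h2⟩
    refine ⟨h1, fun hm => ?_⟩
    obtain ⟨y, hy1, hy2, h3, h4⟩ := (br_mid hq hF ht hx h1).2 hm
    exact h2 y hy1 hy2 ⟨h3, h4⟩
  · rintro ⟨h1, h2⟩
    refine ⟨h1, fun y hy1 hy2 h => h2 ((br_mid hq hF ht hx h1).1 ⟨y, hy1, hy2, h.1, h.2⟩)⟩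

end Cfsg.Agent.Lib.Helper17.SU3G
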