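import Cfsg.Agent.Lib.Helper17.SU3G.Defs
import Cfsg.Agent.Lib.Helper17.SU3G.INV
import Cfsg.Agent.Lib.Helper17.SU3G.MK
import Cfsg.Agent.Lib.Helper17.SU3G.UNI

set_option autoImplicit false

namespace Cfsg.Agent.Lib.Helper17.SU3G

open Matrix

variable {F : Type*} [Field F] [Fintype F] {q : ℕ}

theorem cnt_fibre (hq : Odd q) (hF : Fintype.card F = q ^ 2) (x : ↥(Cfsg.SU 3 F q)) (h1 : x ≠ 1)
    (h2 : x * x = 1) : Nat.card {a : Fin 3 → F // Ax x a} = q ^ 2 - 1 := by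
  classical
  obtain ⟨a₀, ha₀⟩ := exists_axis hq hF x h1 h2
  have ha0 : a₀ ≠ 0 := by
    rintro rfl
    apply ha₀.1
    simp [Cfsg.hermForm]
  have hc : Nat.card {c : F // c ≠ 0} = q ^ 2 - 1 := by
    rw [Nat.card_eq_fintype_card, Fintype.card_subtype_compl, hF]
    simp
  rw [← hc]
  symm
  refine Nat.card_congr (Equiv.ofBijective
    (fun c : {c : F // c ≠ 0} => (⟨c.1 • a₀, ax_smul hF ha₀ c.2⟩ : {a : Fin 3 → F // Ax x a})) ⟨?_, ?_⟩)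
  · intro c c' hcc
    have := congrArg Subtype.val hcc
    exact Subtype.ext (smul_left_injective F ha0 this)
  · rintro ⟨a, ha⟩
    obtain ⟨c, hc0, rfl⟩ := ax_span hq hF ha₀ ha
    exact ⟨⟨c, hc0⟩, rfl⟩

/-- CNT. -/
theorem card_mul (hq : Odd q) (hF : Fintype.card F = q ^ 2) (Ψ : ↥(Cfsg.SU 3 F q) → Prop)
    (Φ : (Fin 3 → F) → Prop) (h : ∀ x a, Ax x a → (Ψ x ↔ Φ a)) :
    Nat.card {x : ↥(Cfsg.SU 3 F q) // x ≠ 1 ∧ x * x = 1 ∧ Ψ x} * (q ^ 2 - 1) =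
      Nat.card {a : Fin 3 → F // Cfsg.hermForm 3 F q a a ≠ 0 ∧ Φ a} := by
  classical
  haveI : Finite ↥(Cfsg.SU 3 F q) := inferInstance
  letI : Fintype {x : ↥(Cfsg.SU 3 F q) // x ≠ 1 ∧ x * x = 1 ∧ Ψ x} := Fintype.ofFinite _
  have hbij : Nat.card (Σ x : {x : ↥(Cfsg.SU 3 F q) // x ≠ 1 ∧ x * x = 1 ∧ Ψ x},
      {a : Fin 3 → F // Ax x.1 a}) =
      Nat.card {a : Fin 3 → F // Cfsg.hermForm 3 F q a a ≠ 0 ∧ Φ a} := by
    refine Nat.card_congr (Equiv.ofBijective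
      (fun z => (⟨z.2.1, z.2.2.1, (h z.1.1 z.2.1 z.2.2).1 z.1.2.2.2⟩ :
        {a : Fin 3 → F // Cfsg.hermForm 3 F q a a ≠ 0 ∧ Φ a})) ⟨?_, ?_⟩)
    · rintro ⟨x, a, ha⟩ ⟨x', a', ha'⟩ hz
      have haa : a = a' := congrArg Subtype.val hz
      subst haa
      have hxx : x = x' := Subtype.ext (ax_ext ha ha')
      subst hxx
      rfl
    · rintro ⟨a, ha, hΦ⟩
      obtain ⟨x, hx1, hx2, hx⟩ := exists_inv hq hF a ha
      exact ⟨⟨⟨x, hx1, hx2, (h x a hx).2 hΦ⟩, ⟨a, hx⟩⟩, rfl⟩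
  rw [← hbij, Nat.card_sigma, Finset.sum_congr rfl (fun x _ => cnt_fibre hq hF x.1 x.2.1 x.2.2.1),
    Finset.sum_const, smul_eq_mul, Finset.card_univ, Nat.card_eq_fintype_card]

end Cfsg.Agent.Lib.Helper17.SU3G
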