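import Cfsg.Agent.Lib.Helper17.SU3G.Defs

set_option autoImplicit false

namespace Cfsg.Agent.Lib.Helper17.SU3G

open Matrix

variable {F : Type*} [Field F] [Fintype F] {q : ℕ}

omit [Fintype F] in
theorem e0_herm (a b : Fin 3 → F) : Cfsg.hermForm 3 F q a b =
    a 0 * b 0 ^ q + (a 1 * b 1 ^ q + a 2 * b 2 ^ q) := by
  simp only [Cfsg.hermForm, Fin.sum_univ_three]
  ring

omit [Fintype F] in
theorem herm_self (b : Fin 3 → F) : Cfsg.hermForm 3 F q b b =
    b 0 * b 0 ^ q + (b 1 * b 1 ^ q + b 2 * b 2 ^ q) := e0_herm b b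

omit [Fintype F] in
theorem e0_left (b : Fin 3 → F) : Cfsg.hermForm 3 F q (e0 F) b = b 0 ^ q := by
  rw [e0, hermForm_single_left]

theorem e0_norm_eq_zero (hF : Fintype.card F = q ^ 2) {x : F} : x * x ^ q = 0 ↔ x = 0 := by
  have hq := two_le_of_card_sq hF
  constructor
  · intro h
    rcases mul_eq_zero.1 h with h | h
    · exact h
    · exact pow_eq_zero_iff (by omega) |>.1 h
  · rintro rfl
    rw [zero_mul]

theorem p1_e0 (hF : Fintype.card F = q ^ 2) (b : Fin 3 → F) : P1 q (e0 F) b ↔ b 0 = 0 := by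
  have hq := two_le_of_card_sq hF
  unfold P1
  rw [e0_left]
  exact pow_eq_zero_iff (by omega)

theorem rel_e0 (hF : Fintype.card F = q ^ 2) (b : Fin 3 → F) :
    Rel q (e0 F) b ↔ (b 0 = 0 ∨ (b 1 = 0 ∧ b 2 = 0)) := by
  apply or_congr (p1_e0 hF b)
  constructor
  · rintro ⟨c, rfl⟩
    simp [e0]
  · rintro ⟨h1, h2⟩
    refine ⟨b 0, ?_⟩
    funext i
    fin_cases i
    · simp [e0]
    · simp [e0, h1]
    · simp [e0, h2]

theorem mid_e0 (hF : Fintype.card F = q ^ 2) (b : Fin 3 → F) (hb : ¬ (b 1 = 0 ∧ b 2 = 0)) :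
    Mid q (e0 F) b ↔ b 1 * b 1 ^ q + b 2 * b 2 ^ q ≠ 0 := by
  have hq := two_le_of_card_sq hF
  constructor
  · rintro ⟨c, hcc, h0c, hcb⟩ hs
    have hc0 : c 0 = 0 := (p1_e0 hF c).1 h0c
    rw [e0_herm, hc0, zero_mul, zero_add] at hcb hcc
    have hcb' : c 1 ^ q * b 1 + c 2 ^ q * b 2 = 0 := by
      have := congrArg (fun z => z ^ q) hcb
      simp only [add_pow_q hF, mul_pow, pow_q_pow_q hF] at this
      rw [this, zero_pow (by omega)]
    have hkey : (c 1 * c 1 ^ q + c 2 * c 2 ^ q) * (b 1 * b 1 ^ q) = 0 := by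
      linear_combination (c 1 ^ q * b 1) * hcb - (c 2 * b 2 ^ q) * hcb' + (c 2 * c 2 ^ q) * hs
    rcases mul_eq_zero.1 hkey with h | h
    · exact hcc h
    · have hb1 : b 1 = 0 := (e0_norm_eq_zero hF).1 h
      rw [hb1, zero_mul, zero_add] at hs
      exact hb ⟨hb1, (e0_norm_eq_zero hF).1 hs⟩
  · intro hs
    refine ⟨![0, b 2 ^ q, -(b 1 ^ q)], ?_, ?_, ?_⟩
    · rw [e0_herm]
      simp only [Matrix.cons_val_zero, Matrix.cons_val_one, Matrix.cons_val]
      rw [neg_pow_q hF, pow_q_pow_q hF, pow_q_pow_q hF]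
      intro h
      apply hs
      linear_combination h
    · rw [e0_left]
      simp only [Matrix.cons_val_zero]
      exact zero_pow (by omega)
    · rw [e0_herm]
      simp only [Matrix.cons_val_zero, Matrix.cons_val_one, Matrix.cons_val]
      ring

end Cfsg.Agent.Lib.Helper17.SU3G
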