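import Cfsg.Agent.Lib.Helper17.SU3G.Defs

set_option autoImplicit false

namespace Cfsg.Agent.Lib.Helper17.SU3G

open Matrix

variable {F : Type*} [Field F] [Fintype F] {q : ℕ}

theorem card_plane_zero (hF : Fintype.card F = q ^ 2) :
    Nat.card {p : F × F // p.1 * p.1 ^ q + p.2 * p.2 ^ q = 0} = q ^ 3 + q ^ 2 - q := by
  have h := Cfsg.Agent.Lib.Helper7.card_hermForm_zero hF 2
  have he : Nat.card {v : Fin 2 → F // Cfsg.hermForm 2 F q v v = 0} =
      Nat.card {p : F × F // p.1 * p.1 ^ q + p.2 * p.2 ^ q = 0} := by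
    refine Nat.card_congr (Equiv.subtypeEquiv (finTwoArrowEquiv F) ?_)
    intro v
    simp [Cfsg.hermForm, Fin.sum_univ_two, finTwoArrowEquiv]
  rw [he] at h
  have hle : q ≤ q ^ 3 + q ^ 2 := by nlinarith [Nat.zero_le (q ^ 3), Nat.zero_le q]
  apply Nat.cast_injective (R := ℤ)
  rw [h, Nat.cast_sub hle]
  push_cast
  norm_num
  ring

theorem card_plane_ne (hF : Fintype.card F = q ^ 2) :
    Nat.card {p : F × F // p.1 * p.1 ^ q + p.2 * p.2 ^ q ≠ 0} = q * (q - 1) * (q ^ 2 - 1) := by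
  classical
  have hq2 := two_le_of_card_sq hF
  have h0 := card_plane_zero hF
  rw [Nat.card_eq_fintype_card] at h0 ⊢
  rw [Fintype.card_subtype_compl, h0, Fintype.card_prod, hF]
  have h1 : 1 ≤ q := by omega
  have h2 : 1 ≤ q ^ 2 := Nat.one_le_pow _ _ (by omega)
  have hle : q ≤ q ^ 3 + q ^ 2 := by nlinarith [Nat.zero_le (q ^ 3), Nat.zero_le q]
  apply Nat.sub_eq_of_eq_add
  apply Nat.cast_injective (R := ℤ)
  push_cast [Nat.cast_sub h1, Nat.cast_sub h2, Nat.cast_sub hle]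
  ring

theorem card_norm_ne (hF : Fintype.card F = q ^ 2) (s : F) (hs : s ≠ 0) (hsq : s ^ q = s) :
    Nat.card {x : F // x ≠ 0 ∧ x * x ^ q + s ≠ 0} = (q - 2) * (q + 1) := by
  classical
  have hq2 := two_le_of_card_sq hF
  have hn := Cfsg.Agent.Lib.Helper7.card_norm_eq hF (c := -s) (neg_ne_zero.2 hs)
    (by rw [neg_pow_q hF, hsq])
  have he : Nat.card {x : F // x ≠ 0 ∧ x * x ^ q + s ≠ 0} =
      Nat.card {x : F // ¬ (x = 0 ∨ x * x ^ q = -s)} := by
    refine Nat.card_congr (Equiv.subtypeEquivRight ?_)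
    intro x
    rw [not_or, ← add_eq_zero_iff_eq_neg]
  rw [he]
  rw [Nat.card_eq_fintype_card] at hn ⊢
  rw [Fintype.card_subtype_compl, Fintype.card_subtype_or_disjoint, hn, hF]
  · have : Fintype.card {x : F // x = 0} = 1 := by simp
    rw [this]
    apply Nat.sub_eq_of_eq_add
    apply Nat.cast_injective (R := ℤ)
    push_cast [Nat.cast_sub hq2]
    ring
  · intro P h1 h2 x hx
    have e1 : x = 0 := h1 x hx
    have e2 : x * x ^ q = -s := h2 x hx
    rw [e1, zero_mul] at e2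
    exact hs (neg_eq_zero.1 e2.symm)

end Cfsg.Agent.Lib.Helper17.SU3G
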