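import Cfsg.Agent.Lib.Helper17.SU3G.Defs
import Cfsg.Agent.Lib.Helper17.SU3G.E0
import Cfsg.Agent.Lib.Helper17.SU3G.PL

set_option autoImplicit false

namespace Cfsg.Agent.Lib.Helper17.SU3G

open Matrix

variable {F : Type*} [Field F] [Fintype F] {q : ℕ}

/-- coordinates `b ↦ ((b 1, b 2), b 0)`. -/
def ct1E (F : Type*) : (Fin 3 → F) ≃ (F × F) × F where
  toFun b := ((b 1, b 2), b 0)
  invFun t := ![t.2, t.1.1, t.1.2]
  left_inv b := by
    funext i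
    fin_cases i <;> rfl
  right_inv t := rfl

/-- CT1. -/
theorem card_P1_e0 (hF : Fintype.card F = q ^ 2) :
    Nat.card {b : Fin 3 → F // Cfsg.hermForm 3 F q b b ≠ 0 ∧ P1 q (e0 F) b} =
      q * (q - 1) * (q ^ 2 - 1) := by
  have h1 : Nat.card {b : Fin 3 → F // Cfsg.hermForm 3 F q b b ≠ 0 ∧ P1 q (e0 F) b} =
      Nat.card {t : (F × F) × F // (t.1.1 * t.1.1 ^ q + t.1.2 * t.1.2 ^ q ≠ 0) ∧ t.2 = 0} := by
    refine Nat.card_congr (Equiv.subtypeEquiv (ct1E F) ?_)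
    intro b
    change _ ↔ (b 1 * b 1 ^ q + b 2 * b 2 ^ q ≠ 0) ∧ b 0 = 0
    rw [herm_self, p1_e0 hF]
    constructor
    · rintro ⟨h, h0⟩
      rw [h0, zero_mul, zero_add] at h
      exact ⟨h, h0⟩
    · rintro ⟨h, h0⟩
      rw [h0, zero_mul, zero_add]
      exact ⟨h, rfl⟩
  rw [h1, Nat.card_congr (Equiv.subtypeProdEquivProd
    (p := fun p : F × F => p.1 * p.1 ^ q + p.2 * p.2 ^ q ≠ 0) (q := fun x : F => x = 0)),
    Nat.card_prod, card_plane_ne hF]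
  simp

end Cfsg.Agent.Lib.Helper17.SU3G
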