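import Cfsg.Agent.Lib.Helper17.SU3G.Defs
import Cfsg.Agent.Lib.Helper17.SU3G.E0
import Cfsg.Agent.Lib.Helper17.SU3G.PL
import Cfsg.Agent.Lib.Helper17.SU3G.CT1

set_option autoImplicit false

namespace Cfsg.Agent.Lib.Helper17.SU3G

open Matrix

variable {F : Type*} [Field F] [Fintype F] {q : ℕ}

/-- CT2. -/
theorem card_P2_e0 (hF : Fintype.card F = q ^ 2) :
    Nat.card {b : Fin 3 → F // Cfsg.hermForm 3 F q b b ≠ 0 ∧ P2 q (e0 F) b} =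
      q * (q - 2) * (q ^ 2 - 1) * (q ^ 2 - 1) := by
  classical
  have hq2 := two_le_of_card_sq hF
  have h1 : Nat.card {b : Fin 3 → F // Cfsg.hermForm 3 F q b b ≠ 0 ∧ P2 q (e0 F) b} =
      Nat.card {t : (F × F) × F // (t.1.1 * t.1.1 ^ q + t.1.2 * t.1.2 ^ q ≠ 0) ∧
        (t.2 ≠ 0 ∧ t.2 * t.2 ^ q + (t.1.1 * t.1.1 ^ q + t.1.2 * t.1.2 ^ q) ≠ 0)} := by
    refine Nat.card_congr (Equiv.subtypeEquiv (ct1E F) ?_)
    intro b
    change _ ↔ (b 1 * b 1 ^ q + b 2 * b 2 ^ q ≠ 0) ∧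
      (b 0 ≠ 0 ∧ b 0 * b 0 ^ q + (b 1 * b 1 ^ q + b 2 * b 2 ^ q) ≠ 0)
    unfold P2
    rw [herm_self, rel_e0 hF, not_or]
    constructor
    · rintro ⟨hbb, ⟨h0, hb'⟩, hm⟩
      rw [mid_e0 hF b hb'] at hm
      exact ⟨hm, h0, hbb⟩
    · rintro ⟨hs, h0, hbb⟩
      have hb' : ¬ (b 1 = 0 ∧ b 2 = 0) := by
        rintro ⟨e1, e2⟩
        apply hs
        rw [e1, e2]
        ring
      refine ⟨hbb, ⟨h0, hb'⟩, ?_⟩
      rw [mid_e0 hF b hb']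
      exact hs
  rw [h1, Nat.card_congr (Equiv.subtypeProdEquivSigmaSubtype
    (fun (p : F × F) (x : F) => (p.1 * p.1 ^ q + p.2 * p.2 ^ q ≠ 0) ∧
        (x ≠ 0 ∧ x * x ^ q + (p.1 * p.1 ^ q + p.2 * p.2 ^ q) ≠ 0))), Nat.card_sigma]
  have h2 : ∀ p : F × F, Nat.card {x : F // (p.1 * p.1 ^ q + p.2 * p.2 ^ q ≠ 0) ∧
        (x ≠ 0 ∧ x * x ^ q + (p.1 * p.1 ^ q + p.2 * p.2 ^ q) ≠ 0)} =
      if p.1 * p.1 ^ q + p.2 * p.2 ^ q ≠ 0 then (q - 2) * (q + 1) else 0 := by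
    intro p
    split_ifs with hs
    · rw [← card_norm_ne hF (p.1 * p.1 ^ q + p.2 * p.2 ^ q) hs (by
        rw [add_pow_q hF, mul_pow, mul_pow, pow_q_pow_q hF, pow_q_pow_q hF]; ring)]
      refine Nat.card_congr (Equiv.subtypeEquivRight ?_)
      intro x
      exact ⟨fun h => h.2, fun h => ⟨hs, h⟩⟩
    · have : IsEmpty {x : F // (p.1 * p.1 ^ q + p.2 * p.2 ^ q ≠ 0) ∧
        (x ≠ 0 ∧ x * x ^ q + (p.1 * p.1 ^ q + p.2 * p.2 ^ q) ≠ 0)} := ⟨fun x => hs x.2.1⟩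
      exact Nat.card_of_isEmpty
  rw [Finset.sum_congr rfl (fun p _ => h2 p), Finset.sum_ite, Finset.sum_const, Finset.sum_const_zero,
    add_zero, smul_eq_mul]
  have h3 := card_plane_ne hF
  rw [Nat.card_eq_fintype_card, Fintype.card_subtype] at h3
  rw [h3]
  have e1 : 1 ≤ q := by omega
  have e2 : 1 ≤ q ^ 2 := Nat.one_le_pow _ _ (by omega)
  apply Nat.cast_injective (R := ℤ)
  push_cast [Nat.cast_sub e1, Nat.cast_sub e2, Nat.cast_sub hq2]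
  ring

end Cfsg.Agent.Lib.Helper17.SU3G
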