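import Cfsg.Agent.Lib.Helper17.SU3G.Defs
import Cfsg.Agent.Lib.Helper17.SU3G.E0
import Cfsg.Agent.Lib.Helper17.SU3G.PL
import Cfsg.Agent.Lib.Helper17.SU3G.CT1

set_option autoImplicit false

namespace Cfsg.Agent.Lib.Helper17.SU3G

open Matrix

variable {F : Type*} [Field F] [Fintype F] {q : ℕ}

theorem ct3_card_punct (hF : Fintype.card F = q ^ 2) :
    Nat.card {p : F × F // p.1 * p.1 ^ q + p.2 * p.2 ^ q = 0 ∧ p ≠ 0} = q ^ 3 + q ^ 2 - q - 1 := by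
  classical
  have h0 := card_plane_zero hF
  rw [Nat.card_eq_fintype_card, Fintype.card_subtype] at h0 ⊢
  have : (Finset.univ.filter fun p : F × F => p.1 * p.1 ^ q + p.2 * p.2 ^ q = 0 ∧ p ≠ 0) =
      (Finset.univ.filter fun p : F × F => p.1 * p.1 ^ q + p.2 * p.2 ^ q = 0).erase 0 := by
    ext p
    simp [and_comm]
  rw [this, Finset.card_erase_of_mem (by simp), h0]

theorem ct3_card_ne (hF : Fintype.card F = q ^ 2) : Nat.card {x : F // x ≠ 0} = q ^ 2 - 1 := by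
  classical
  rw [Nat.card_eq_fintype_card, Fintype.card_subtype_compl, hF]
  simp

/-- CT3. -/
theorem card_P3_e0 (hF : Fintype.card F = q ^ 2) :
    Nat.card {b : Fin 3 → F // Cfsg.hermForm 3 F q b b ≠ 0 ∧ P3 q (e0 F) b} =
      (q + 1) * (q ^ 2 - 1) * (q ^ 2 - 1) := by
  have hq2 := two_le_of_card_sq hF
  have h1 : Nat.card {b : Fin 3 → F // Cfsg.hermForm 3 F q b b ≠ 0 ∧ P3 q (e0 F) b} =
      Nat.card {t : (F × F) × F // (t.1.1 * t.1.1 ^ q + t.1.2 * t.1.2 ^ q = 0 ∧ t.1 ≠ 0) ∧ t.2 ≠ 0} := by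
    refine Nat.card_congr (Equiv.subtypeEquiv (ct1E F) ?_)
    intro b
    change _ ↔ (b 1 * b 1 ^ q + b 2 * b 2 ^ q = 0 ∧ ((b 1, b 2) : F × F) ≠ 0) ∧ b 0 ≠ 0
    unfold P3
    rw [herm_self, rel_e0 hF, not_or]
    have hp : ((b 1, b 2) : F × F) ≠ 0 ↔ ¬ (b 1 = 0 ∧ b 2 = 0) := by
      rw [Ne, Prod.ext_iff]
      rfl
    rw [hp]
    constructor
    · rintro ⟨_, ⟨h0, hb'⟩, hm⟩
      rw [mid_e0 hF b hb', not_not] at hm
      exact ⟨⟨hm, hb'⟩, h0⟩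
    · rintro ⟨⟨hs, hb'⟩, h0⟩
      refine ⟨?_, ⟨h0, hb'⟩, ?_⟩
      · rw [hs, add_zero]
        exact fun h => h0 ((e0_norm_eq_zero hF).1 h)
      · rw [mid_e0 hF b hb', not_not]
        exact hs
  rw [h1, Nat.card_congr (Equiv.subtypeProdEquivProd
    (p := fun p : F × F => p.1 * p.1 ^ q + p.2 * p.2 ^ q = 0 ∧ p ≠ 0) (q := fun x : F => x ≠ 0)),
    Nat.card_prod, ct3_card_punct hF, ct3_card_ne hF]
  congr 1
  have h2 : 1 ≤ q ^ 2 := Nat.one_le_pow _ _ (by omega)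
  have hle : q ≤ q ^ 3 + q ^ 2 := by nlinarith [Nat.zero_le (q ^ 3), Nat.zero_le q]
  have hle' : 1 ≤ q ^ 3 + q ^ 2 - q := by
    have : q + 1 ≤ q ^ 3 + q ^ 2 := by nlinarith [Nat.zero_le (q ^ 3), Nat.zero_le q]
    omega
  apply Nat.cast_injective (R := ℤ)
  push_cast [Nat.cast_sub h2, Nat.cast_sub hle, Nat.cast_sub hle']
  ring

end Cfsg.Agent.Lib.Helper17.SU3G
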