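import Cfsg.Agent.Lib.Helper17.SU3G.Defs
import Cfsg.Agent.Lib.Helper17.SU3G.MK
import Cfsg.Agent.Lib.Helper17.SU3G.E0

set_option autoImplicit false

namespace Cfsg.Agent.Lib.Helper17.SU3G

open Matrix

variable {F : Type*} [Field F] [Fintype F] {q : ℕ}

/-- DM. -/
theorem diam_e0 (hq : Odd q) (hF : Fintype.card F = q ^ 2) (b : Fin 3 → F)
    (hb : Cfsg.hermForm 3 F q b b ≠ 0) : ∃ c d : Fin 3 → F,
      Cfsg.hermForm 3 F q c c ≠ 0 ∧ Cfsg.hermForm 3 F q d d ≠ 0 ∧ Rel q (e0 F) c ∧ Rel q c d ∧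
        Rel q d b := by
  have h2 := mk_two_ne hq hF
  have hq2 := two_le_of_card_sq hF
  have hq0 : q ≠ 0 := by omega
  by_cases hs : b 1 * b 1 ^ q + b 2 * b 2 ^ q = 0
  · rw [herm_self, hs, add_zero] at hb
    by_cases h02 : b 0 * b 0 ^ q + b 2 * b 2 ^ q = 0
    · have h01 : b 0 * b 0 ^ q + b 1 * b 1 ^ q ≠ 0 := by
        intro h01
        apply hb
        have : (2 : F) * (b 0 * b 0 ^ q) = 0 := by linear_combination h01 + h02 - hs
        exact (mul_eq_zero.1 this).resolve_left h2
      refine ⟨![0, 0, 1], ![b 1 ^ q, -(b 0 ^ q), 0], ?_, ?_, ?_, ?_, ?_⟩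
      · rw [e0_herm]
        simp [hq0]
      · rw [e0_herm]
        simp only [Matrix.cons_val_zero, Matrix.cons_val_one, Matrix.cons_val]
        rw [neg_pow_q hF, pow_q_pow_q hF, pow_q_pow_q hF]
        intro h
        apply h01
        linear_combination h
      · rw [rel_e0 hF]
        left
        simp
      · left
        rw [e0_herm]
        simp [hq0]
      · left
        rw [e0_herm]
        simp only [Matrix.cons_val_zero, Matrix.cons_val_one, Matrix.cons_val]
        ring
    · refine ⟨![0, 1, 0], ![b 2 ^ q, 0, -(b 0 ^ q)], ?_, ?_, ?_, ?_, ?_⟩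
      · rw [e0_herm]
        simp [hq0]
      · rw [e0_herm]
        simp only [Matrix.cons_val_zero, Matrix.cons_val_one, Matrix.cons_val]
        rw [neg_pow_q hF, pow_q_pow_q hF, pow_q_pow_q hF]
        intro h
        apply h02
        linear_combination h
      · rw [rel_e0 hF]
        left
        simp
      · left
        rw [e0_herm]
        simp [hq0]
      · left
        rw [e0_herm]
        simp only [Matrix.cons_val_zero, Matrix.cons_val_one, Matrix.cons_val]
        ring
  · have hb' : ¬ (b 1 = 0 ∧ b 2 = 0) := by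
      rintro ⟨h1, h3⟩
      apply hs
      rw [h1, h3]
      ring
    obtain ⟨c, hcc, h0c, hcb⟩ := (mid_e0 hF b hb').2 hs
    exact ⟨c, c, hcc, hcc, Or.inl h0c, Or.inr ⟨1, (one_smul _ _).symm⟩, Or.inl hcb⟩

end Cfsg.Agent.Lib.Helper17.SU3G
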