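import Cfsg.Agent.Lib.Helper17.UnitCoord
import Cfsg.Agent.Lib.Helper17.UnitHyp
import Cfsg.Agent.Lib.Helper17.UnitIso
import Cfsg.Agent.Lib.Helper7.Herm

set_option autoImplicit false

/-! Ladder SU3G (S2356): the commuting involution graph of `SU_3(q)`, `q` odd.  Definitions. -/

namespace Cfsg.Agent.Lib.Helper17.SU3G

open Matrix

variable {F : Type*} [Field F] {q : ℕ}

/-- The matrix of an element of `SU_3`. -/
abbrev mt (x : ↥(Cfsg.SU 3 F q)) : Matrix (Fin 3) (Fin 3) F :=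
  ((x : Matrix.SpecialLinearGroup (Fin 3) F) : Matrix (Fin 3) (Fin 3) F)

/-- `a` is an axis of `x`: `a` is non-isotropic and `x v = -v + 2 h(v,a)/h(a,a) a`. -/
def Ax (x : ↥(Cfsg.SU 3 F q)) (a : Fin 3 → F) : Prop :=
  Cfsg.hermForm 3 F q a a ≠ 0 ∧
    ∀ v, mt x *ᵥ v = -v + (2 * Cfsg.hermForm 3 F q v a / Cfsg.hermForm 3 F q a a) • a

/-- The relation on vectors corresponding to commuting involutions. -/
def Rel (q : ℕ) (a b : Fin 3 → F) : Prop := Cfsg.hermForm 3 F q a b = 0 ∨ ∃ c : F, b = c • a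

/-- `b` is at distance 1 from `a`. -/
def P1 (q : ℕ) (a b : Fin 3 → F) : Prop := Cfsg.hermForm 3 F q a b = 0

/-- there is a non-isotropic vector orthogonal to `a` and `b`. -/
def Mid (q : ℕ) (a b : Fin 3 → F) : Prop :=
  ∃ c : Fin 3 → F, Cfsg.hermForm 3 F q c c ≠ 0 ∧ Cfsg.hermForm 3 F q a c = 0 ∧
    Cfsg.hermForm 3 F q c b = 0

/-- `b` is at distance 2 from `a`. -/
def P2 (q : ℕ) (a b : Fin 3 → F) : Prop := ¬ Rel q a b ∧ Mid q a b

/-- `b` is at distance 3 from `a`. -/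
def P3 (q : ℕ) (a b : Fin 3 → F) : Prop := ¬ Rel q a b ∧ ¬ Mid q a b

/-- The first basis vector. -/
def e0 (F : Type*) [Field F] : Fin 3 → F := Pi.single 0 1

end Cfsg.Agent.Lib.Helper17.SU3G
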