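import Cfsg.Agent.Lib.Helper17.SU3G.Defs

set_option autoImplicit false

namespace Cfsg.Agent.Lib.Helper17.SU3G

open Matrix

variable {F : Type*} [Field F] [Fintype F] {q : ℕ}

/-- TRANS. -/
theorem exists_isom (hF : Fintype.card F = q ^ 2) (a : Fin 3 → F)
    (ha : Cfsg.hermForm 3 F q a a ≠ 0) :
    ∃ (e : (Fin 3 → F) ≃ₗ[F] (Fin 3 → F)) (c : F), c ≠ 0 ∧
      (∀ u v, Cfsg.hermForm 3 F q (e u) (e v) = Cfsg.hermForm 3 F q u v) ∧ e (e0 F) = c • a := by
  have hr : (Cfsg.hermForm 3 F q a a) ^ q = Cfsg.hermForm 3 F q a a := hermForm_conj hF 3 a a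
  have hcard := Cfsg.Agent.Lib.Helper7.card_norm_eq hF (c := (Cfsg.hermForm 3 F q a a)⁻¹)
    (inv_ne_zero ha) (by rw [inv_pow, hr])
  have hne : Nonempty {x : F // x * x ^ q = (Cfsg.hermForm 3 F q a a)⁻¹} := by
    by_contra hcon
    rw [not_nonempty_iff] at hcon
    rw [Nat.card_of_isEmpty] at hcard
    omega
  obtain ⟨⟨c, hc⟩⟩ := hne
  have hc0 : c ≠ 0 := by
    rintro rfl
    rw [zero_mul] at hc
    exact inv_ne_zero ha hc.symm
  have ha0 : a ≠ 0 := by
    rintro rfl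
    apply ha
    simp [Cfsg.hermForm]
  have he0 : e0 F ≠ 0 := by
    intro h
    have := congrFun h 0
    simp [e0] at this
  obtain ⟨A, hA⟩ := gu_witt_frame hF 3 (fun _ : Unit => e0 F) (fun _ => c • a)
    (linearIndependent_unique_iff.2 he0) (linearIndependent_unique_iff.2 (smul_ne_zero hc0 ha0)) (by
      intro _ _
      rw [hermForm_smul_left, hermForm_smul_right, ← mul_assoc, hc, inv_mul_cancel₀ ha, e0,
        hermForm_single_left]
      simp)
  refine ⟨guEquiv A, c, hc0, ?_, ?_⟩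
  · intro u v
    rw [guEquiv_apply, guEquiv_apply, gu_hermForm]
  · rw [guEquiv_apply]
    exact hA ()

end Cfsg.Agent.Lib.Helper17.SU3G
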