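import Cfsg.Agent.Lib.Helper17.SU3G.Defs
import Cfsg.Agent.Lib.Helper17.SU3G.TRANS

set_option autoImplicit false

namespace Cfsg.Agent.Lib.Helper17.SU3G

open Matrix

variable {F : Type*} [Field F] {q : ℕ}

theorem trv_rel_iso (e : (Fin 3 → F) ≃ₗ[F] (Fin 3 → F))
    (he : ∀ u v, Cfsg.hermForm 3 F q (e u) (e v) = Cfsg.hermForm 3 F q u v) (a b : Fin 3 → F) :
    Rel q (e a) (e b) ↔ Rel q a b := by
  unfold Rel
  rw [he]
  apply or_congr Iff.rfl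
  constructor
  · rintro ⟨k, hk⟩
    refine ⟨k, e.injective ?_⟩
    rw [hk, map_smul]
  · rintro ⟨k, hk⟩
    exact ⟨k, by rw [hk, map_smul]⟩

theorem trv_mid_iso (e : (Fin 3 → F) ≃ₗ[F] (Fin 3 → F))
    (he : ∀ u v, Cfsg.hermForm 3 F q (e u) (e v) = Cfsg.hermForm 3 F q u v) (a b : Fin 3 → F) :
    Mid q (e a) (e b) ↔ Mid q a b := by
  constructor
  · rintro ⟨c, h1, h2, h3⟩
    refine ⟨e.symm c, ?_, ?_, ?_⟩
    · rw [← he, e.apply_symm_apply]; exact h1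
    · rw [← he, e.apply_symm_apply]; exact h2
    · rw [← he, e.apply_symm_apply]; exact h3
  · rintro ⟨c, h1, h2, h3⟩
    exact ⟨e c, by rw [he]; exact h1, by rw [he]; exact h2, by rw [he]; exact h3⟩

theorem trv_rel_smul {c : F} (hc : c ≠ 0) (a b : Fin 3 → F) : Rel q (c • a) b ↔ Rel q a b := by
  unfold Rel
  rw [hermForm_smul_left]
  apply or_congr
  · constructor
    · intro h; exact (mul_eq_zero.1 h).resolve_left hc
    · intro h; rw [h, mul_zero]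
  · constructor
    · rintro ⟨k, hk⟩
      exact ⟨k * c, by rw [hk, smul_smul]⟩
    · rintro ⟨k, hk⟩
      exact ⟨k * c⁻¹, by rw [hk, smul_smul, mul_assoc, inv_mul_cancel₀ hc, mul_one]⟩

theorem trv_mid_smul {c : F} (hc : c ≠ 0) (a b : Fin 3 → F) : Mid q (c • a) b ↔ Mid q a b := by
  constructor
  · rintro ⟨d, h1, h2, h3⟩
    rw [hermForm_smul_left] at h2
    exact ⟨d, h1, (mul_eq_zero.1 h2).resolve_left hc, h3⟩
  · rintro ⟨d, h1, h2, h3⟩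
    exact ⟨d, h1, by rw [hermForm_smul_left, h2, mul_zero], h3⟩

theorem trv_card (e : (Fin 3 → F) ≃ₗ[F] (Fin 3 → F))
    (he : ∀ u v, Cfsg.hermForm 3 F q (e u) (e v) = Cfsg.hermForm 3 F q u v)
    (Φ Φ' : (Fin 3 → F) → Prop) (h : ∀ b, Φ' b ↔ Φ (e b)) :
    Nat.card {b : Fin 3 → F // Cfsg.hermForm 3 F q b b ≠ 0 ∧ Φ b} =
      Nat.card {b : Fin 3 → F // Cfsg.hermForm 3 F q b b ≠ 0 ∧ Φ' b} := by
  refine (Nat.card_congr (Equiv.subtypeEquiv e.toEquiv ?_)).symm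
  intro b
  change _ ↔ Cfsg.hermForm 3 F q (e b) (e b) ≠ 0 ∧ Φ (e b)
  rw [he, h]

variable [Fintype F]

theorem card_P1_eq (hF : Fintype.card F = q ^ 2) (a : Fin 3 → F) (ha : Cfsg.hermForm 3 F q a a ≠ 0) :
    Nat.card {b : Fin 3 → F // Cfsg.hermForm 3 F q b b ≠ 0 ∧ P1 q a b} =
      Nat.card {b : Fin 3 → F // Cfsg.hermForm 3 F q b b ≠ 0 ∧ P1 q (e0 F) b} := by
  obtain ⟨e, c, hc, he, hea⟩ := exists_isom hF a ha
  apply trv_card e he
  intro b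
  unfold P1
  rw [← he (e0 F) b, hea, hermForm_smul_left]
  constructor
  · intro h; exact (mul_eq_zero.1 h).resolve_left hc
  · intro h; rw [h, mul_zero]

theorem card_P2_eq (hF : Fintype.card F = q ^ 2) (a : Fin 3 → F) (ha : Cfsg.hermForm 3 F q a a ≠ 0) :
    Nat.card {b : Fin 3 → F // Cfsg.hermForm 3 F q b b ≠ 0 ∧ P2 q a b} =
      Nat.card {b : Fin 3 → F // Cfsg.hermForm 3 F q b b ≠ 0 ∧ P2 q (e0 F) b} := by
  obtain ⟨e, c, hc, he, hea⟩ := exists_isom hF a ha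
  apply trv_card e he
  intro b
  unfold P2
  rw [← trv_rel_iso e he (e0 F) b, ← trv_mid_iso e he (e0 F) b, hea, trv_rel_smul hc, trv_mid_smul hc]

theorem card_P3_eq (hF : Fintype.card F = q ^ 2) (a : Fin 3 → F) (ha : Cfsg.hermForm 3 F q a a ≠ 0) :
    Nat.card {b : Fin 3 → F // Cfsg.hermForm 3 F q b b ≠ 0 ∧ P3 q a b} =
      Nat.card {b : Fin 3 → F // Cfsg.hermForm 3 F q b b ≠ 0 ∧ P3 q (e0 F) b} := by
  obtain ⟨e, c, hc, he, hea⟩ := exists_isom hF a ha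
  apply trv_card e he
  intro b
  unfold P3
  rw [← trv_rel_iso e he (e0 F) b, ← trv_mid_iso e he (e0 F) b, hea, trv_rel_smul hc, trv_mid_smul hc]

theorem diam_of_e0 (hF : Fintype.card F = q ^ 2)
    (h0 : ∀ b : Fin 3 → F, Cfsg.hermForm 3 F q b b ≠ 0 → ∃ c d : Fin 3 → F,
      Cfsg.hermForm 3 F q c c ≠ 0 ∧ Cfsg.hermForm 3 F q d d ≠ 0 ∧ Rel q (e0 F) c ∧ Rel q c d ∧ Rel q d b)
    (a b : Fin 3 → F) (ha : Cfsg.hermForm 3 F q a a ≠ 0) (hb : Cfsg.hermForm 3 F q b b ≠ 0) :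
    ∃ c d : Fin 3 → F, Cfsg.hermForm 3 F q c c ≠ 0 ∧ Cfsg.hermForm 3 F q d d ≠ 0 ∧ Rel q a c ∧
      Rel q c d ∧ Rel q d b := by
  obtain ⟨e, k, hk, he, hea⟩ := exists_isom hF a ha
  obtain ⟨c, d, hc, hd, r1, r2, r3⟩ := h0 (e.symm b) (by rw [← he, e.apply_symm_apply]; exact hb)
  refine ⟨e c, e d, by rw [he]; exact hc, by rw [he]; exact hd, ?_, ?_, ?_⟩
  · rw [← trv_rel_smul hk, ← hea, trv_rel_iso e he]; exact r1
  · rw [trv_rel_iso e he]; exact r2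
  · rw [← trv_rel_iso e he, e.apply_symm_apply] at r3; exact r3

end Cfsg.Agent.Lib.Helper17.SU3G
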