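import Cfsg.Agent.Lib.Helper17.SU3G.INV
import Cfsg.Agent.Lib.Helper17.SU3G.MK
import Cfsg.Agent.Lib.Helper17.SU3G.COM
import Cfsg.Agent.Lib.Helper17.SU3G.CNT
import Cfsg.Agent.Lib.Helper17.SU3G.BR
import Cfsg.Agent.Lib.Helper17.SU3G.TRV
import Cfsg.Agent.Lib.Helper17.SU3G.CT1
import Cfsg.Agent.Lib.Helper17.SU3G.CT2
import Cfsg.Agent.Lib.Helper17.SU3G.CT3
import Cfsg.Agent.Lib.Helper17.SU3G.DM

set_option autoImplicit false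

namespace Cfsg.Agent.Lib.Helper17.SU3G

open Matrix

variable {F : Type*} [Field F] [Fintype F] {q : ℕ}

theorem main (hq : Odd q) (hF : Fintype.card F = q ^ 2) (t : ↥(Cfsg.SU 3 F q)) (ht : t ≠ 1)
    (ht2 : t * t = 1) :
    Nat.card {x : ↥(Cfsg.SU 3 F q) // x ≠ 1 ∧ x * x = 1 ∧ x ≠ t ∧ Commute t x} = q * (q - 1) ∧
    Nat.card {x : ↥(Cfsg.SU 3 F q) // x ≠ 1 ∧ x * x = 1 ∧ ¬ Commute t x ∧
        ∃ y : ↥(Cfsg.SU 3 F q), y ≠ 1 ∧ y * y = 1 ∧ Commute t y ∧ Commute y x} = q * (q - 2) * (q ^ 2 - 1) ∧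
    Nat.card {x : ↥(Cfsg.SU 3 F q) // x ≠ 1 ∧ x * x = 1 ∧ ¬ Commute t x ∧
        ∀ y : ↥(Cfsg.SU 3 F q), y ≠ 1 → y * y = 1 → ¬ (Commute t y ∧ Commute y x)} = (q + 1) * (q ^ 2 - 1) ∧
    ∀ x : ↥(Cfsg.SU 3 F q), x ≠ 1 → x * x = 1 →
      ∃ y z : ↥(Cfsg.SU 3 F q), y ≠ 1 ∧ y * y = 1 ∧ z ≠ 1 ∧ z * z = 1 ∧
        Commute t y ∧ Commute y z ∧ Commute z x := by
  obtain ⟨a, ha⟩ := exists_axis hq hF t ht ht2
  have hq2 : 2 ≤ q := Cfsg.Agent.Lib.Helper7.two_le_of_card_sq hF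
  have hpos : 0 < q ^ 2 - 1 := by
    have : 4 ≤ q ^ 2 := by nlinarith
    omega
  refine ⟨?_, ?_, ?_, ?_⟩
  · have h1 := card_mul hq hF (fun x => x ≠ t ∧ Commute t x) (fun b => P1 q a b)
      (fun x b hx => bridge1 hq hF ha hx)
    rw [card_P1_eq hF a ha.1, card_P1_e0 hF] at h1
    exact Nat.eq_of_mul_eq_mul_right hpos h1
  · have h1 := card_mul hq hF (fun x => ¬ Commute t x ∧
        ∃ y : ↥(Cfsg.SU 3 F q), y ≠ 1 ∧ y * y = 1 ∧ Commute t y ∧ Commute y x) (fun b => P2 q a b)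
      (fun x b hx => bridge2 hq hF ha hx)
    rw [card_P2_eq hF a ha.1, card_P2_e0 hF] at h1
    exact Nat.eq_of_mul_eq_mul_right hpos h1
  · have h1 := card_mul hq hF (fun x => ¬ Commute t x ∧
        ∀ y : ↥(Cfsg.SU 3 F q), y ≠ 1 → y * y = 1 → ¬ (Commute t y ∧ Commute y x)) (fun b => P3 q a b)
      (fun x b hx => bridge3 hq hF ha hx)
    rw [card_P3_eq hF a ha.1, card_P3_e0 hF] at h1
    exact Nat.eq_of_mul_eq_mul_right hpos h1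
  · intro x hx1 hx2
    obtain ⟨b, hb⟩ := exists_axis hq hF x hx1 hx2
    obtain ⟨c, d, hc, hd, r1, r2, r3⟩ := diam_of_e0 hF (diam_e0 hq hF) a b ha.1 hb.1
    obtain ⟨y, hy1, hy2, hy⟩ := exists_inv hq hF c hc
    obtain ⟨z, hz1, hz2, hz⟩ := exists_inv hq hF d hd
    exact ⟨y, z, hy1, hy2, hz1, hz2, (commute_iff hq hF ha hy).2 r1, (commute_iff hq hF hy hz).2 r2,
      (commute_iff hq hF hz hb).2 r3⟩

end Cfsg.Agent.Lib.Helper17.SU3G
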